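import Cfsg.Agent.H308.CA.Stmts

/-!
# The centraliser of an exotic element, linear case (helper206, S3852, task 4771)
-/

set_option autoImplicit false

namespace Cfsg.Agent.H206.CA

open Matrix Polynomial Cfsg.Agent.H308.CA

section fld

variable {F : Type} [Field F] {ι : Type} [Fintype ι] [DecidableEq ι]

theorem field_part [Finite F] {r : ℕ} (hr : r.Prime) (hr2 : r ≠ 2) (A : Matrix ι ι F) (a : F)
    (hA : A ^ r = a • (1 : Matrix ι ι F)) (ha : ∀ c : F, c ^ r ≠ a) (hdet : A.det = 1) :
    ∃ (m : ℕ) (F' : Type) (_ : Field F') (_ : Finite F') (ψ : Matrix (Fin m) (Fin m) F' →+* Matrix ι ι F),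
      Fintype.card ι = r * m ∧ r ∣ m ∧ Function.Injective ψ ∧ (∀ b, b ∈ Set.range ψ ↔ b * A = A * b) ∧
      (∀ P : Matrix (Fin m) (Fin m) F', P.det = 1 → (ψ P).det = 1) ∧ ∀ p : ℕ, CharP F p → CharP F' p := by
  classical
  have ha0 : a ≠ 0 := by
    intro h
    exact ha 0 (by rw [h, zero_pow hr.ne_zero])
  set f : F[X] := X ^ r - C a with hf
  have hirr : Irreducible f := X_pow_sub_C_irreducible_of_prime hr ha
  have hfact : Fact (Irreducible f) := ⟨hirr⟩
  have hf0 : f ≠ 0 := hirr.ne_zero
  have hmon : f.Monic := monic_X_pow_sub_C a hr.ne_zero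
  have hdeg : f.natDegree = r := natDegree_X_pow_sub_C
  -- the endomorphism
  let T : Module.End F (ι → F) := Matrix.toLin' A
  have hT : T ^ r = a • (1 : Module.End F (ι → F)) := by
    have h1 : T ^ r = Matrix.toLin' (A ^ r) := (Matrix.toLin'_pow A r).symm
    rw [h1, hA, map_smul, Matrix.toLin'_one]
    rfl
  have hTf : (aeval T) f = 0 := by
    rw [hf, map_sub, map_pow, aeval_X, aeval_C, hT, Algebra.algebraMap_eq_smul_one, sub_self]
  let θ : AdjoinRoot f →+* Module.End F (ι → F) := Ideal.Quotient.lift (Ideal.span {f}) (aeval T).toRingHom (by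
    intro g hg
    obtain ⟨g', rfl⟩ := Ideal.mem_span_singleton.1 hg
    rw [map_mul]
    change (aeval T) f * _ = 0
    rw [hTf, zero_mul])
  have hθmk : ∀ g : F[X], θ (AdjoinRoot.mk f g) = aeval T g := fun g => Ideal.Quotient.lift_mk _ _ _
  let _ : Module (AdjoinRoot f) (ι → F) := Module.compHom (ι → F) θ
  have hsm : ∀ (c : AdjoinRoot f) (v : ι → F), c • v = θ c v := fun c v => rfl
  have hst : IsScalarTower F (AdjoinRoot f) (ι → F) := by
    refine ⟨fun x c v => ?_⟩
    obtain ⟨g, rfl⟩ := AdjoinRoot.mk_surjective c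
    rw [hsm, hsm]
    have h1 : x • AdjoinRoot.mk f g = AdjoinRoot.mk f (x • g) := rfl
    rw [h1, hθmk, hθmk, map_smul]
    rfl
  have hfd : FiniteDimensional (AdjoinRoot f) (ι → F) := Module.Finite.of_restrictScalars_finite F _ _
  have hfd' : FiniteDimensional F (AdjoinRoot f) := (AdjoinRoot.powerBasis hf0).finite
  have hfr : Module.finrank F (AdjoinRoot f) = r := by
    rw [(AdjoinRoot.powerBasis hf0).finrank, AdjoinRoot.powerBasis_dim, hdeg]
  have hfin : Finite (AdjoinRoot f) := Module.finite_of_finite F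
  let m := Module.finrank (AdjoinRoot f) (ι → F)
  have hm : Fintype.card ι = r * m := by
    have h1 := Module.finrank_mul_finrank F (AdjoinRoot f) (ι → F)
    rw [hfr, Module.finrank_fintype_fun_eq_card] at h1
    exact h1.symm
  let b : Module.Basis (Fin m) (AdjoinRoot f) (ι → F) := Module.finBasis (AdjoinRoot f) (ι → F)
  let res : Module.End (AdjoinRoot f) (ι → F) →+* Module.End F (ι → F) :=
    { toFun := fun g => g.restrictScalars F
      map_one' := rfl
      map_mul' := fun _ _ => rfl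
      map_zero' := rfl
      map_add' := fun _ _ => rfl }
  let ψ : Matrix (Fin m) (Fin m) (AdjoinRoot f) →+* Matrix ι ι F :=
    ((LinearMap.toMatrixAlgEquiv' : Module.End F (ι → F) ≃ₐ[F] Matrix ι ι F) : Module.End F (ι → F) →+* Matrix ι ι F).comp
      (res.comp ((Matrix.toLinAlgEquiv b : Matrix (Fin m) (Fin m) (AdjoinRoot f) ≃ₐ[AdjoinRoot f] _) :
        Matrix (Fin m) (Fin m) (AdjoinRoot f) →+* Module.End (AdjoinRoot f) (ι → F)))
  have hψ : ∀ P, ψ P = LinearMap.toMatrix' ((Matrix.toLin b b P).restrictScalars F) := fun P => rfl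
  have hdetψ : ∀ P, (ψ P).det = Algebra.norm F P.det := by
    intro P
    rw [hψ, LinearMap.det_toMatrix', LinearMap.det_restrictScalars, LinearMap.det_toLin]
  have hroot : ∀ v, θ (AdjoinRoot.root f) v = T v := by
    intro v
    have h1 : AdjoinRoot.root f = AdjoinRoot.mk f X := rfl
    rw [h1, hθmk, aeval_X]
  refine ⟨m, AdjoinRoot f, inferInstance, hfin, ψ, hm, ?_, ?_, ?_, ?_, ?_⟩
  · -- `r ∣ m`
    have h1 : ψ (AdjoinRoot.root f • (1 : Matrix (Fin m) (Fin m) (AdjoinRoot f))) = A := by
      rw [hψ, map_smul, Matrix.toLin_one]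
      apply Matrix.toLin'.injective
      rw [Matrix.toLin'_toMatrix']
      ext1 v
      apply LinearMap.ext
      intro w
      exact hroot _
    have h2 := hdetψ (AdjoinRoot.root f • (1 : Matrix (Fin m) (Fin m) (AdjoinRoot f)))
    rw [h1, hdet, Matrix.det_smul, Matrix.det_one, mul_one, Fintype.card_fin, map_pow] at h2
    have h3 : Algebra.norm F (AdjoinRoot.root f) = a := by
      have h4 := Algebra.PowerBasis.norm_gen_eq_coeff_zero_minpoly (AdjoinRoot.powerBasis hf0)
      rw [AdjoinRoot.minpoly_powerBasis_gen_of_monic hmon, AdjoinRoot.powerBasis_gen, AdjoinRoot.powerBasis_dim, hdeg,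
        hf, coeff_sub, coeff_X_pow, coeff_C_zero, if_neg hr.ne_zero.symm, zero_sub] at h4
      rw [h4, (hr.odd_of_ne_two hr2).neg_one_pow]
      ring
    rw [h3] at h2
    by_contra hrm
    have hcop : Nat.Coprime r m := (Nat.Prime.coprime_iff_not_dvd hr).2 hrm
    have hbez := Nat.gcd_eq_gcd_ab r m
    rw [hcop] at hbez
    have h5 : a = (a ^ (Nat.gcdA r m)) ^ r := by
      have h6 : a ^ ((1 : ℕ) : ℤ) = a := by rw [Nat.cast_one, zpow_one]
      rw [hbez, zpow_add₀ ha0, _root_.zpow_mul, _root_.zpow_mul, zpow_natCast, zpow_natCast, ← h2, _root_.one_zpow, mul_one] at h6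
      conv_lhs => rw [← h6]
      rw [← zpow_natCast, ← zpow_natCast, _root_.zpow_comm]
    exact ha _ h5.symm
  · -- injective
    intro P P' hPP
    apply (Matrix.toLin b b).injective
    have h1 : (Matrix.toLin b b P).restrictScalars F = (Matrix.toLin b b P').restrictScalars F :=
      LinearMap.toMatrix'.injective hPP
    exact LinearMap.restrictScalars_injective F h1
  · -- the centraliser
    intro B
    constructor
    · rintro ⟨P, rfl⟩
      apply Matrix.toLin'.injective
      rw [Matrix.toLin'_mul, Matrix.toLin'_mul, hψ, Matrix.toLin'_toMatrix']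
      apply LinearMap.ext
      intro v
      change Matrix.toLin b b P (T v) = T (Matrix.toLin b b P v)
      rw [← hroot, ← hroot, ← hsm, ← hsm, map_smul]
    · intro hB
      have hcomm : Commute (Matrix.toLin' B : Module.End F (ι → F)) T := by
        change Matrix.toLin' B ∘ₗ Matrix.toLin' A = Matrix.toLin' A ∘ₗ Matrix.toLin' B
        rw [← Matrix.toLin'_mul, ← Matrix.toLin'_mul, hB]
      have hcomm2 : ∀ g : F[X], Commute (Matrix.toLin' B : Module.End F (ι → F)) (aeval T g) := by
        intro g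
        induction g using Polynomial.induction_on' with
        | add p q hp hq => rw [map_add]; exact hp.add_right hq
        | monomial n c =>
          rw [aeval_monomial, Algebra.algebraMap_eq_smul_one, smul_one_mul]
          exact (hcomm.pow_right n).smul_right c
      let L : (ι → F) →ₗ[AdjoinRoot f] (ι → F) :=
        { toFun := Matrix.toLin' B
          map_add' := map_add _
          map_smul' := by
            intro c v
            obtain ⟨g, rfl⟩ := AdjoinRoot.mk_surjective c
            rw [hsm, hsm, hθmk, RingHom.id_apply, hθmk]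
            exact LinearMap.congr_fun (hcomm2 g).eq v }
      refine ⟨LinearMap.toMatrix b b L, ?_⟩
      rw [hψ, Matrix.toLin_toMatrix]
      have h1 : L.restrictScalars F = Matrix.toLin' B := rfl
      rw [h1, LinearMap.toMatrix'_toLin']
  · intro P hP
    rw [hdetψ, hP, map_one]
  · intro p hp
    exact charP_of_injective_algebraMap (algebraMap F (AdjoinRoot f)).injective p

end fld

section ex

variable {F : Type} [Field F] {ι : Type} [Fintype ι] [DecidableEq ι]

/-- first components -/
def p1 (F : Type) [Field F] : Ex F →+* F := RingHom.fst F F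

/-- second components -/
def p2 (F : Type) [Field F] : Ex F →+* F := RingHom.snd F F

/-- the matrix with given components -/
def mk2 (P R : Matrix ι ι F) : Matrix ι ι (Ex F) := Matrix.of fun i j => ((P i j, R i j) : F × F)

theorem p1_mk2 (P R : Matrix ι ι F) : (p1 F).mapMatrix (mk2 P R) = P := rfl

theorem p2_mk2 (P R : Matrix ι ι F) : (p2 F).mapMatrix (mk2 P R) = R := rfl

theorem ext2 {X Y : Matrix ι ι (Ex F)} (h1 : (p1 F).mapMatrix X = (p1 F).mapMatrix Y)
    (h2 : (p2 F).mapMatrix X = (p2 F).mapMatrix Y) : X = Y := by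
  ext i j
  exact Prod.ext (congrFun (congrFun h1 i) j) (congrFun (congrFun h2 i) j)

theorem p1_star (X : Matrix ι ι (Ex F)) : (p1 F).mapMatrix (star X) = ((p2 F).mapMatrix X)ᵀ := rfl

theorem p2_star (X : Matrix ι ι (Ex F)) : (p2 F).mapMatrix (star X) = ((p1 F).mapMatrix X)ᵀ := rfl

theorem ext_det {X : Matrix ι ι (Ex F)} : X.det = 1 ↔ ((p1 F).mapMatrix X).det = 1 ∧ ((p2 F).mapMatrix X).det = 1 := by
  rw [← RingHom.map_det, ← RingHom.map_det]
  constructor
  · intro h
    rw [h, map_one, map_one]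
    exact ⟨rfl, rfl⟩
  · rintro ⟨h1, h2⟩
    exact Prod.ext h1 h2

theorem charP_ex {p : ℕ} : CharP (Ex F) p ↔ CharP F p := by
  have h : ∀ n : ℕ, ((n : Ex F) = 0 ↔ (n : F) = 0) := by
    intro n
    constructor
    · intro h
      have := congrArg (p1 F) h
      rwa [map_natCast, map_zero] at this
    · intro h
      have h1 : p1 F (n : Ex F) = 0 := by rw [map_natCast, h]
      have h2 : p2 F (n : Ex F) = 0 := by rw [map_natCast, h]
      exact Prod.ext h1 h2
  constructor
  · intro hp
    exact ⟨fun n => by rw [← h n]; exact CharP.cast_eq_zero_iff (Ex F) p n⟩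
  · intro hp
    exact ⟨fun n => by rw [h n]; exact CharP.cast_eq_zero_iff F p n⟩

/-- `(P, R) ↦ (ψ P, (ψ Rᵀ)ᵀ)` -/
def phi {F' : Type} [Field F'] {κ : Type} [Fintype κ] [DecidableEq κ] (ψ : Matrix κ κ F' →+* Matrix ι ι F) :
    Matrix κ κ (Ex F') →+* Matrix ι ι (Ex F) where
  toFun X := mk2 (ψ ((p1 F').mapMatrix X)) (ψ ((p2 F').mapMatrix X)ᵀ)ᵀ
  map_one' := by
    apply ext2
    · rw [p1_mk2, map_one, map_one, map_one]
    · rw [p2_mk2, map_one, Matrix.transpose_one, map_one, Matrix.transpose_one, map_one]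
  map_mul' X Y := by
    apply ext2
    · rw [map_mul (p1 F).mapMatrix, p1_mk2, p1_mk2, p1_mk2, map_mul, map_mul]
    · rw [map_mul (p2 F).mapMatrix, p2_mk2, p2_mk2, p2_mk2, map_mul, Matrix.transpose_mul, map_mul,
        Matrix.transpose_mul]
  map_zero' := by
    apply ext2
    · rw [p1_mk2, map_zero, map_zero, map_zero]
    · rw [p2_mk2, map_zero, Matrix.transpose_zero, map_zero, Matrix.transpose_zero, map_zero]
  map_add' X Y := by
    apply ext2
    · rw [map_add (p1 F).mapMatrix, p1_mk2, p1_mk2, p1_mk2, map_add, map_add]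
    · rw [map_add (p2 F).mapMatrix, p2_mk2, p2_mk2, p2_mk2, map_add, Matrix.transpose_add, map_add,
        Matrix.transpose_add]

theorem p1_phi {F' : Type} [Field F'] {κ : Type} [Fintype κ] [DecidableEq κ] (ψ : Matrix κ κ F' →+* Matrix ι ι F)
    (X : Matrix κ κ (Ex F')) : (p1 F).mapMatrix (phi ψ X) = ψ ((p1 F').mapMatrix X) := rfl

theorem p2_phi {F' : Type} [Field F'] {κ : Type} [Fintype κ] [DecidableEq κ] (ψ : Matrix κ κ F' →+* Matrix ι ι F)
    (X : Matrix κ κ (Ex F')) : (p2 F).mapMatrix (phi ψ X) = (ψ ((p2 F').mapMatrix X)ᵀ)ᵀ := rfl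

end ex

/-- **EX, linear case** -/
theorem ex_lin (F : Type) [Field F] [Finite F] : EXSt (Ex F) := by
  intro ι _ _ r hr hr2 _ x l hl hx hnr
  classical
  obtain ⟨a, b⟩ := l
  set A := (p1 F).mapMatrix (mt x) with hA
  set B := (p2 F).mapMatrix (mt x) with hB
  have hba : b * a = 1 := congrArg Prod.fst hl
  have ha0 : a ≠ 0 := right_ne_zero_of_mul_eq_one hba
  have hAr : A ^ r = a • (1 : Matrix ι ι F) := by
    have h1 := congrArg (p1 F).mapMatrix hx
    rw [map_pow] at h1
    rw [h1]
    ext i j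
    change a * p1 F ((1 : Matrix ι ι (Ex F)) i j) = a * (1 : Matrix ι ι F) i j
    by_cases hij : i = j
    · subst hij
      rw [Matrix.one_apply_eq, Matrix.one_apply_eq, map_one]
    · rw [Matrix.one_apply_ne hij, Matrix.one_apply_ne hij, map_zero]
  have hnra : ∀ c : F, c ^ r ≠ a := by
    intro c hc
    have hc0 : c ≠ 0 := by
      rintro rfl
      rw [zero_pow hr.ne_zero] at hc
      exact ha0 hc.symm
    refine hnr ((c, c⁻¹) : F × F) ?_ ?_
    · change ((c⁻¹ * c, c * c⁻¹) : F × F) = (1, 1)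
      rw [inv_mul_cancel₀ hc0, mul_inv_cancel₀ hc0]
    · have hb : b = a⁻¹ := eq_inv_of_mul_eq_one_left hba
      change ((c ^ r, c⁻¹ ^ r) : F × F) = (a, b)
      rw [inv_pow, hc, hb]
  have hdet := mt_det x
  rw [ext_det] at hdet
  obtain ⟨m, F', iF, hfin, ψ, hcard, hrm, hinj, hrange, hdetψ, hchar⟩ := field_part hr hr2 A a hAr hnra hdet.1
  have hBA : Bᵀ * A = 1 := by
    have h1 := congrArg (p1 F).mapMatrix (star_mt_mul x)
    rw [map_mul, p1_star, map_one] at h1
    exact h1
  have hAB : A * Bᵀ = 1 := mul_eq_one_comm.1 hBA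
  refine ⟨m, Ex F', inferInstance, inferInstance, phi ψ, Good.lin F' iF hfin, hcard, hrm, ?_, ?_, ?_, ?_, ?_⟩
  · intro X Y hXY
    apply ext2
    · exact hinj (by rw [← p1_phi, hXY, p1_phi])
    · have h1 := congrArg (p2 F).mapMatrix hXY
      rw [p2_phi, p2_phi] at h1
      exact Matrix.transpose_injective (hinj (Matrix.transpose_injective h1))
  · intro X
    apply ext2
    · rw [p1_star, p1_phi, p2_phi, p1_star, Matrix.transpose_transpose]
    · rw [p2_star, p1_phi, p2_phi, p2_star, Matrix.transpose_transpose]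
  · intro X
    constructor
    · rintro ⟨Y, rfl⟩
      apply ext2
      · rw [map_mul, map_mul, p1_phi]
        exact (hrange _).1 ⟨_, rfl⟩
      · rw [map_mul, map_mul, p2_phi]
        apply Matrix.transpose_injective
        rw [Matrix.transpose_mul, Matrix.transpose_mul, Matrix.transpose_transpose]
        change Bᵀ * _ = _ * Bᵀ
        have h1 := (hrange (ψ ((p2 F').mapMatrix Y)ᵀ)).1 ⟨_, rfl⟩
        calc Bᵀ * ψ ((p2 F').mapMatrix Y)ᵀ = Bᵀ * (ψ ((p2 F').mapMatrix Y)ᵀ * A) * Bᵀ := by
              rw [mul_assoc, mul_assoc, hAB, mul_one]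
          _ = (Bᵀ * A) * ψ ((p2 F').mapMatrix Y)ᵀ * Bᵀ := by rw [h1, ← mul_assoc]
          _ = _ := by rw [hBA, one_mul]
    · intro hX
      obtain ⟨P, hP⟩ := (hrange ((p1 F).mapMatrix X)).2 (by
        have := congrArg (p1 F).mapMatrix hX
        rwa [map_mul, map_mul] at this)
      obtain ⟨R, hR⟩ := (hrange ((p2 F).mapMatrix X)ᵀ).2 (by
        have h1 := congrArg (p2 F).mapMatrix hX
        rw [map_mul, map_mul] at h1
        have h2 := congrArg Matrix.transpose h1
        rw [Matrix.transpose_mul, Matrix.transpose_mul] at h2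
        change Bᵀ * _ = _ * Bᵀ at h2
        calc ((p2 F).mapMatrix X)ᵀ * A = (A * Bᵀ) * ((p2 F).mapMatrix X)ᵀ * A := by rw [hAB, one_mul]
          _ = A * (Bᵀ * ((p2 F).mapMatrix X)ᵀ) * A := by rw [mul_assoc A]
          _ = A * ((p2 F).mapMatrix X)ᵀ * (Bᵀ * A) := by rw [h2, mul_assoc, mul_assoc, mul_assoc]
          _ = _ := by rw [hBA, mul_one])
      refine ⟨mk2 P Rᵀ, ?_⟩
      apply ext2
      · rw [p1_phi, p1_mk2, hP]
      · rw [p2_phi, p2_mk2, Matrix.transpose_transpose, hR, Matrix.transpose_transpose]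
  · intro u
    have h1 := mt_det u
    rw [ext_det] at h1 ⊢
    rw [p1_phi, p2_phi, Matrix.det_transpose]
    exact ⟨hdetψ _ h1.1, hdetψ _ (by rw [Matrix.det_transpose]; exact h1.2)⟩
  · intro p hp
    rw [charP_ex] at hp ⊢
    exact hchar p hp

end Cfsg.Agent.H206.CA

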